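import Cfsg.Prelude.Def_SolvableStructure
import Cfsg.Agent.Coprime.Action
import Cfsg.Agent.Transfer.Frobenius

/-!
Minimal non-nilpotent groups (Schmidt) and minimal non-abelian groups (Miller–Moreno).
-/

set_option autoImplicit false
set_option linter.style.haveILetI false
set_option linter.unusedSectionVars false
set_option linter.deprecated false

open Subgroup
open scoped Pointwise commutatorElement

namespace Cfsg.Agent.Schmidt

universe u

variable {G : Type u} [Group G] [Finite G]

/-- Inside a nilpotent subgroup coprime normalising subgroups centralise. -/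
theorem le_centralizer_of_nilpotent {A U H : Subgroup G} (hH : Group.IsNilpotent H)
    (hUH : U ≤ H) (hAH : A ≤ H) (hAU : A ≤ normalizer (U : Set G))
    (hcop : (Nat.card A).Coprime (Nat.card U)) : A ≤ centralizer (U : Set G) := by
  refine Coprime.le_centralizer_of_commutator_commutator_eq_bot hAU hcop ?_
  rw [Coprime.commutator_commutator_eq hAU hcop]
  obtain ⟨n, hn⟩ := (Subgroup.isNilpotent_iff_lowerCentralSeries H).1 hH
  suffices key : ∀ m, ⁅U, A⁆ ≤ H.lowerCentralSeries m by exact le_bot_iff.1 (hn ▸ key n)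
  intro m
  induction m with
  | zero => exact (Coprime.commutator_le_of_le_normalizer hAU).trans hUH
  | succ m ih =>
    rw [Subgroup.lowerCentralSeries_succ, ← Coprime.commutator_commutator_eq hAU hcop]
    exact commutator_mono ih hAH

/-- A group with a normal subgroup of index the exact `q`-part of its order for every prime `q`
is nilpotent. -/
theorem nilpotent_of_normal_complements
    (hN : ∀ q : ℕ, q.Prime → ∃ N : Subgroup G, N.Normal ∧
      N.index = q ^ (Nat.card G).factorization q) : Group.IsNilpotent G := by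
  classical
  choose N hNn hNi using hN
  refine (Group.isNilpotent_of_finite_tfae.out 0 3 rfl rfl).2 fun r hr R => ?_
  set N' : Subgroup G := ⨅ q : {q : ℕ // q.Prime ∧ q ≠ r}, N q.1 q.2.1 with hN'
  haveI : N'.Normal := normal_iInf_normal fun q => hNn q.1 q.2.1
  have hRle : (R : Subgroup G) ≤ N' := by
    refine le_iInf fun q => ?_
    haveI := hNn q.1 q.2.1
    obtain ⟨i, hi⟩ := R.2.exists_card_eq
    have h1 : Nat.card ((R : Subgroup G).map (QuotientGroup.mk' (N q.1 q.2.1))) ∣ r ^ i :=
      hi ▸ card_map_dvd (R : Subgroup G) _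
    have h2 : Nat.card ((R : Subgroup G).map (QuotientGroup.mk' (N q.1 q.2.1))) ∣
        q.1 ^ (Nat.card G).factorization q.1 := by
      rw [← hNi q.1 q.2.1, index_eq_card]
      exact card_subgroup_dvd_card _
    have h3 := Nat.eq_one_of_dvd_coprimes
      (((Nat.coprime_primes hr.out q.2.1).2 (Ne.symm q.2.2)).pow _ _) h1 h2
    have h4 := (Subgroup.map_eq_bot_iff _).1 (Subgroup.eq_bot_of_card_eq _ h3)
    rwa [QuotientGroup.ker_mk'] at h4
  have hp : IsPGroup r N' := by
    refine IsPGroup.of_card (n := (Nat.card N').primeFactorsList.length) ?_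
    refine Nat.eq_prime_pow_of_unique_prime_dvd Nat.card_pos.ne' fun {s} hs hsd => ?_
    by_contra hne
    have h1 : s ∣ Nat.card (N s hs) :=
      hsd.trans (card_dvd_of_le (iInf_le_of_le (⟨s, hs, hne⟩ : {q : ℕ // q.Prime ∧ q ≠ r}) le_rfl))
    have h2 : s ^ ((Nat.card G).factorization s + 1) ∣ Nat.card G := by
      have e : s ^ (Nat.card G).factorization s * Nat.card (N s hs) = Nat.card G := by
        rw [← hNi s hs, index_mul_card]
      rw [pow_succ]
      exact (mul_dvd_mul_left _ h1).trans (dvd_of_eq e)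
    have := (hs.pow_dvd_iff_le_factorization Nat.card_pos.ne').1 h2
    omega
  rw [← R.3 hp hRle]
  infer_instance

/-- A non-nilpotent group has a `q`-subgroup normalised but not centralised by a `q'`-element. -/
theorem exists_noncentral (hG : ¬ Group.IsNilpotent G) :
    ∃ (q : ℕ) (U : Subgroup G) (g : G), q.Prime ∧ IsPGroup q U ∧ g ∈ normalizer (U : Set G) ∧
      (orderOf g).Coprime q ∧ g ∉ centralizer (U : Set G) := by
  classical
  by_contra hcon
  push Not at hcon
  apply hG
  have hN : ∀ q : ℕ, q.Prime → ∃ N : Subgroup G, N.Normal ∧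
      N.index = q ^ (Nat.card G).factorization q := by
    intro q hq
    haveI : Fact q.Prime := ⟨hq⟩
    obtain ⟨P, N, hN, hc⟩ := Transfer.hasNormalPComplement_of_coprime_centralize (p := q)
      fun Q hQ _ g hg hgo => hcon q Q g hq hQ hg hgo
    exact ⟨N, hN, hc.symm.index_eq_card.trans P.card_eq_multiplicity⟩
  exact nilpotent_of_normal_complements hN

/-- Core of Schmidt's theorem. -/
theorem structure_of_minimal (hG : ¬ Group.IsNilpotent G)
    (hmin : ∀ H : Subgroup G, H ≠ ⊤ → Group.IsNilpotent H) :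
    ∃ (q r k : ℕ) (U : Subgroup G) (g : G), q.Prime ∧ r.Prime ∧ r ≠ q ∧ U.Normal ∧
      IsPGroup q U ∧ orderOf g = r ^ k ∧ U ⊔ zpowers g = ⊤ ∧ g ∉ centralizer (U : Set G) := by
  obtain ⟨q, U, g, hq, hU, hgn, hgo, hgc⟩ := exists_noncentral hG
  haveI : Fact q.Prime := ⟨hq⟩
  obtain ⟨i, hi⟩ := hU.exists_card_eq
  have hcopg : ∀ x ∈ zpowers g, (Nat.card (zpowers x)).Coprime (Nat.card U) := by
    intro x hx
    rw [Nat.card_zpowers, hi]
    refine Nat.Coprime.pow_right _ (hgo.coprime_dvd_left ?_)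
    obtain ⟨m, rfl⟩ := mem_zpowers_iff.1 hx
    exact orderOf_dvd_of_mem_zpowers (mem_zpowers_iff.2 ⟨m, rfl⟩)
  have hcent : ∀ x ∈ zpowers g, U ⊔ zpowers x ≠ ⊤ → x ∈ centralizer (U : Set G) := by
    intro x hx hne
    exact le_centralizer_of_nilpotent (hmin _ hne) le_sup_left le_sup_right
      ((zpowers_le.2 hx).trans (zpowers_le.2 hgn)) (hcopg x hx) (mem_zpowers x)
  have htop : U ⊔ zpowers g = ⊤ := by
    by_contra h
    exact hgc (hcent g (mem_zpowers g) h)
  have hUn : U.Normal := normalizer_eq_top_iff.1 (top_le_iff.1 (htop.symm.le.trans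
    (sup_le le_normalizer (zpowers_le.2 hgn))))
  have hg1 : orderOf g ≠ 1 := by
    intro h
    rw [orderOf_eq_one_iff] at h
    exact hgc (h ▸ one_mem _)
  obtain ⟨r, hr, hrd⟩ := Nat.exists_prime_and_dvd hg1
  have hrq : r ≠ q := fun h => hq.not_dvd_one (hgo ▸ Nat.dvd_gcd (h ▸ hrd) dvd_rfl)
  refine ⟨q, r, (orderOf g).primeFactorsList.length, U, g, hq, hr, hrq, hUn, hU, ?_, htop, hgc⟩
  refine Nat.eq_prime_pow_of_unique_prime_dvd (orderOf_pos g).ne' fun {s} hs hsd => ?_
  by_contra hne
  have key : ∀ t : ℕ, t.Prime → t ∣ orderOf g → g ^ t ∈ centralizer (U : Set G) := by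
    intro t ht htd
    refine hcent _ (npow_mem_zpowers g t) fun h => ?_
    have h1 := Coprime.card_sup_of_coprime (K := U) (A := zpowers (g ^ t))
      ((zpowers_le.2 (npow_mem_zpowers g t)).trans (zpowers_le.2 hgn))
      (hcopg _ (npow_mem_zpowers g t))
    have h2 := Coprime.card_sup_of_coprime (K := U) (A := zpowers g)
      (zpowers_le.2 hgn) (hcopg g (mem_zpowers g))
    rw [sup_comm, h] at h1
    rw [sup_comm, htop, h1] at h2
    have h3 := Nat.eq_of_mul_eq_mul_right Nat.card_pos h2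
    rw [Nat.card_zpowers, Nat.card_zpowers, orderOf_pow_of_dvd ht.ne_zero htd] at h3
    exact (Nat.div_lt_self (orderOf_pos g) ht.one_lt).ne h3
  apply hgc
  have hbez : g = (g ^ r) ^ (Nat.gcdA r s) * (g ^ s) ^ (Nat.gcdB r s) := by
    rw [← zpow_natCast, ← zpow_natCast, ← zpow_mul, ← zpow_mul, ← zpow_add,
      ← Nat.gcd_eq_gcd_ab, (Nat.coprime_primes hr hs).2 (Ne.symm hne), Nat.cast_one, zpow_one]
  rw [hbez]
  exact mul_mem (zpow_mem (key r hr hrd) _) (zpow_mem (key s hs hsd) _)

/-- Schmidt: the Sylow subgroups. -/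
theorem sylows_of_minimal (hG : ¬ Group.IsNilpotent G)
    (hmin : ∀ H : Subgroup G, H ≠ ⊤ → Group.IsNilpotent H) :
    ∃ (p q : ℕ) (g : G) (P : Sylow p G) (Q : Sylow q G), p.Prime ∧ q.Prime ∧ p ≠ q ∧
      (P : Subgroup G) = zpowers g ∧ (Q : Subgroup G).Normal ∧
      (P : Subgroup G) ⊔ Q = ⊤ ∧ g ∉ centralizer ((Q : Subgroup G) : Set G) := by
  obtain ⟨q, r, k, U, g, hq, hr, hrq, hUn, hU, hgk, htop, hgc⟩ := structure_of_minimal hG hmin
  haveI : Fact q.Prime := ⟨hq⟩
  haveI : Fact r.Prime := ⟨hr⟩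
  obtain ⟨i, hi⟩ := hU.exists_card_eq
  have hg : Nat.card (zpowers g) = r ^ k := by rw [Nat.card_zpowers, hgk]
  have hcard : Nat.card G = r ^ k * q ^ i := by
    rw [← hg, ← hi, ← Coprime.card_sup_of_coprime le_normalizer_of_normal
      (by rw [hg, hi]; exact ((Nat.coprime_primes hr hq).2 hrq).pow _ _), sup_comm, htop, card_top]
  have hfr : (Nat.card G).factorization r = k := by
    rw [hcard, Nat.factorization_mul (pow_ne_zero _ hr.ne_zero) (pow_ne_zero _ hq.ne_zero),
      Finsupp.add_apply, Nat.factorization_pow_self hr, Nat.factorization_eq_zero_of_not_dvd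
        (fun h => hrq ((Nat.prime_dvd_prime_iff_eq hr hq).1 (hr.dvd_of_dvd_pow h))), add_zero]
  have hfq : (Nat.card G).factorization q = i := by
    rw [hcard, Nat.factorization_mul (pow_ne_zero _ hr.ne_zero) (pow_ne_zero _ hq.ne_zero),
      Finsupp.add_apply, Nat.factorization_pow_self hq, Nat.factorization_eq_zero_of_not_dvd
        (fun h => hrq ((Nat.prime_dvd_prime_iff_eq hq hr).1 (hq.dvd_of_dvd_pow h)).symm), zero_add]
  exact ⟨r, q, g, Sylow.ofCard (zpowers g) (by rw [hg, hfr]), Sylow.ofCard U (by rw [hi, hfq]),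
    hr, hq, hrq, Sylow.coe_ofCard _ _, by rw [Sylow.coe_ofCard]; exact hUn,
    by rw [Sylow.coe_ofCard, Sylow.coe_ofCard, sup_comm, htop],
    by rw [Sylow.coe_ofCard]; exact hgc⟩

/-- A nilpotent group with abelian Sylow subgroups is abelian. -/
theorem comm_of_nilpotent [hN : Group.IsNilpotent G]
    (h : ∀ (p : ℕ) [Fact p.Prime] (P : Sylow p G), IsMulCommutative (P : Subgroup G)) :
    IsMulCommutative G := by
  have key : ∀ H : Subgroup G, (∀ (p : ℕ) [Fact p.Prime] (P : Sylow p G), (P : Subgroup G) ≤ H) →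
      H = ⊤ := by
    intro H hH
    refine eq_top_of_card_eq H (Nat.dvd_antisymm (card_subgroup_dvd_card H) ?_)
    rw [Nat.dvd_iff_prime_pow_dvd_dvd]
    intro p k hp hk
    haveI : Fact p.Prime := ⟨hp⟩
    let P : Sylow p G := default
    refine dvd_trans ?_ (card_dvd_of_le (hH p P))
    rw [P.card_eq_multiplicity]
    exact pow_dvd_pow p ((hp.pow_dvd_iff_le_factorization Nat.card_pos.ne').1 hk)
  have hc : center G = ⊤ := by
    refine key _ fun p _ P x hx => mem_center_iff.2 fun y => ?_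
    have h2 : centralizer ({x} : Set G) = ⊤ := by
      refine key _ fun q _ Q => ?_
      intro y hy
      rw [mem_centralizer_singleton_iff]
      haveI hPn : (P : Subgroup G).Normal :=
        (Group.isNilpotent_of_finite_tfae.out 0 3 rfl rfl).1 hN p ‹_› P
      haveI hQn : (Q : Subgroup G).Normal :=
        (Group.isNilpotent_of_finite_tfae.out 0 3 rfl rfl).1 hN q ‹_› Q
      by_cases hpq : p = q
      · subst hpq
        haveI := (P.unique_of_normal hPn)
        have hQP : (Q : Subgroup G) = P := by rw [Subsingleton.elim Q P]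
        exact congrArg Subtype.val ((h p P).is_comm.comm ⟨y, hQP ▸ hy⟩ ⟨x, hx⟩)
      · exact (Subgroup.commute_of_normal_of_disjoint (P : Subgroup G) Q hPn hQn
          (IsPGroup.disjoint_of_coprime P.2 Q.2
            ((Nat.coprime_primes (Fact.out) (Fact.out)).2 hpq)) x y hx hy).symm
    exact mem_centralizer_singleton_iff.1 (h2 ▸ mem_top y)
  exact ⟨⟨fun a b => (mem_center_iff.1 (hc ▸ mem_top b) a)⟩⟩

/-- Miller–Moreno. -/
theorem minimal_non_abelian (hna : ¬ IsMulCommutative G)
    (h : ∀ H : Subgroup G, H ≠ ⊤ → IsMulCommutative H) :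
    (∃ p : ℕ, p.Prime ∧ IsPGroup p G) ∨
      ∃ (p q : ℕ) (g : G) (P : Sylow p G) (Q : Sylow q G), p.Prime ∧ q.Prime ∧ p ≠ q ∧
        (P : Subgroup G) = zpowers g ∧ (Q : Subgroup G).Normal ∧
        (IsMulCommutative (Q : Subgroup G) ∧ ∀ a ∈ (Q : Subgroup G), a ^ q = 1) ∧
        (P : Subgroup G) ⊔ Q = ⊤ := by
  by_cases hnil : Group.IsNilpotent G
  · left
    by_contra hcon
    push Not at hcon
    refine hna (comm_of_nilpotent fun p hp P => h _ fun htop => hcon p hp.out ?_)
    exact P.2.of_surjective (P : Subgroup G).subtype (fun x => ⟨⟨x, htop ▸ mem_top x⟩, rfl⟩)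
  · right
    have hmin : ∀ H : Subgroup G, H ≠ ⊤ → Group.IsNilpotent H := by
      intro H hH
      haveI := h H hH
      letI : CommGroup H := { (inferInstance : Group H) with
        mul_comm := IsMulCommutative.is_comm.comm }
      infer_instance
    obtain ⟨p, q, g, P, Q, hp, hq, hpq, hPg, hQn, htop, hgc⟩ := sylows_of_minimal hnil hmin
    haveI : Fact q.Prime := ⟨hq⟩
    haveI : Fact p.Prime := ⟨hp⟩
    have hQtop : (Q : Subgroup G) ≠ ⊤ := fun e => hnil <| by
      haveI := (Q.2.of_surjective (Q : Subgroup G).subtype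
        (fun x => ⟨⟨x, e ▸ mem_top x⟩, rfl⟩)).isNilpotent
      assumption
    haveI hQc := h _ hQtop
    refine ⟨p, q, g, P, Q, hp, hq, hpq, hPg, hQn, ⟨hQc, fun a ha => ?_⟩, htop⟩
    by_contra hne
    let V : Subgroup G :=
      { carrier := {x | x ∈ (Q : Subgroup G) ∧ x ^ q = 1}
        one_mem' := ⟨one_mem _, one_pow _⟩
        mul_mem' := fun {x y} hx hy => ⟨mul_mem hx.1 hy.1, by
          have : Commute x y := congrArg Subtype.val (hQc.is_comm.comm ⟨x, hx.1⟩ ⟨y, hy.1⟩)
          rw [this.mul_pow, hx.2, hy.2, one_mul]⟩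
        inv_mem' := fun {x} hx => ⟨inv_mem hx.1, by rw [inv_pow, hx.2, inv_one]⟩ }
    haveI hVn : V.Normal := ⟨fun x hx y => ⟨hQn.conj_mem x hx.1 y, by
      rw [conj_pow, hx.2, mul_one, mul_inv_cancel]⟩⟩
    have hVQ : V ≤ (Q : Subgroup G) := fun x hx => hx.1
    have hgV : ∀ x ∈ V, g * x = x * g := by
      have hne' : V ⊔ zpowers g ≠ ⊤ := by
        intro e
        obtain ⟨v, hv, z, hz, hvz⟩ : ∃ v ∈ V, ∃ z ∈ zpowers g, v * z = a := by
          have : a ∈ (V : Set G) * (zpowers g : Set G) := by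
            rw [← normal_mul, e]; trivial
          obtain ⟨v, hv, z, hz, e'⟩ := Set.mem_mul.1 this
          exact ⟨v, hv, z, hz, e'⟩
        have hzQ : z ∈ (P : Subgroup G) ⊓ Q := ⟨hPg ▸ hz, by
          rw [show z = v⁻¹ * a by rw [← hvz, inv_mul_cancel_left]]
          exact (Q : Subgroup G).mul_mem ((Q : Subgroup G).inv_mem (hVQ hv)) ha⟩
        rw [(IsPGroup.disjoint_of_coprime P.2 Q.2
          ((Nat.coprime_primes hp hq).2 hpq)).eq_bot, mem_bot] at hzQ
        rw [← hvz, hzQ, mul_one] at hne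
        exact hne hv.2
      intro x hx
      exact congrArg Subtype.val ((h _ hne').is_comm.comm ⟨g, mem_sup_right (mem_zpowers g)⟩
        ⟨x, mem_sup_left hx⟩)
    have hcop : (Nat.card (zpowers g)).Coprime (Nat.card (Q : Subgroup G)) := by
      rw [← hPg]
      exact IsPGroup.coprime_card_of_ne p q hpq _ _ P.2 Q.2
    have hbot := Coprime.centralizer_inf_commutator_eq_bot (A := zpowers g)
      (V := (Q : Subgroup G)) le_normalizer_of_normal hcop
    have hQg : ⁅(Q : Subgroup G), zpowers g⁆ = ⊥ := by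
      by_contra hc
      have hle := Coprime.commutator_le_of_le_normalizer
        (A := zpowers g) (K := (Q : Subgroup G)) le_normalizer_of_normal
      have hd : q ∣ Nat.card ↥⁅(Q : Subgroup G), zpowers g⁆ := by
        obtain ⟨j, hj⟩ := (Q.2.to_le hle).exists_card_eq
        rw [hj]
        refine dvd_pow_self q ?_
        rintro rfl
        exact hc (Subgroup.eq_bot_of_card_eq _ (by simpa using hj))
      obtain ⟨x, hx⟩ := exists_prime_orderOf_dvd_card' q hd
      have hx1 : (x : G) ∈ ((Q : Subgroup G) ⊓ centralizer (zpowers g : Set G)) ⊓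
          ⁅(Q : Subgroup G), zpowers g⁆ := by
        refine ⟨⟨hle x.2, ?_⟩, x.2⟩
        have hxV : (x : G) ∈ V := ⟨hle x.2, by
          have h1 := congrArg Subtype.val (hx ▸ pow_orderOf_eq_one x)
          simpa using h1⟩
        intro y hy
        obtain ⟨m, rfl⟩ := mem_zpowers_iff.1 hy
        exact (Commute.zpow_left (hgV _ hxV) m)
      rw [hbot, mem_bot] at hx1
      rw [← orderOf_coe, hx1, orderOf_one] at hx
      exact hq.ne_one hx.symm
    exact hgc ((le_centralizer_iff.1 (commutator_eq_bot_iff_le_centralizer.1 hQg))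
      (mem_zpowers g))

end Cfsg.Agent.Schmidt
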